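import Mathlib
import Cfsg.Agent.Lib.Helper81.CS3.NGDefs
import Cfsg.Agent.Lib.Helper71.CS3.Basics

/-!
# CS3 (S4284), part NG, package [SYL]

For a prime `s ∣ m` every centralizer contains a non-central `s`-element.
-/

set_option autoImplicit false

namespace Cfsg.Agent.Lib.Helper88.CS3

open Cfsg.Agent.Lib.Helper81.CS3

universe u

/-- strict inclusion of finite subgroups gives strict inequality of orders -/
theorem syl_card_lt {G : Type u} [Group G] [Finite G] {H K : Subgroup G} (h : H < K) :
    Nat.card H < Nat.card K := by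
  rcases (Subgroup.card_le_of_le h.le).lt_or_eq with h1 | h1
  · exact h1
  · exact absurd (Subgroup.eq_of_le_of_card_ge h.le h1.ge) h.ne

/-- **[SYL]** -/
theorem pkgSyl : PkgSyl.{u} := by
  intro G _ _ m n hyp s hs hsm x
  have hsF : Fact s.Prime := ⟨hs⟩
  -- a non-central `s`-element
  obtain ⟨u, huS, huc⟩ : ∃ u ∈ ((default : Sylow s G) : Subgroup G), u ∉ Subgroup.center G := by
    by_contra hcon
    push Not at hcon
    exact Cfsg.Agent.Lib.Helper71.CS3.sylow_not_le_center hyp hsm (default : Sylow s G)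
      (fun u hu => hcon u hu)
  have hu_ord : ∃ k : ℕ, orderOf u = s ^ k := by
    obtain ⟨k, hk⟩ := (IsPGroup.iff_orderOf.mp (default : Sylow s G).isPGroup') ⟨u, huS⟩
    exact ⟨k, by rw [← hk, Subgroup.orderOf_mk]⟩
  by_cases hxc : x ∈ Subgroup.center G
  · exact ⟨u, ⟨hs, hsm, hu_ord, huc⟩, Subgroup.mem_center_iff.mp hxc u⟩
  · by_contra hcon
    push Not at hcon
    have hcent : ∀ b : G, Commute b x → (∃ k : ℕ, orderOf b = s ^ k) →
        b ∈ Subgroup.center G := by
      intro b hb hord
      by_contra hbc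
      exact hcon b ⟨hs, hsm, hord, hbc⟩ hb
    obtain ⟨C, hC⟩ : ∃ C : Subgroup G, C = Subgroup.centralizer ({x} : Set G) := ⟨_, rfl⟩
    obtain ⟨K, hK⟩ := Sylow.exists_subgroup_card_pow_prime (G := ↥C) s
      (Nat.ordProj_dvd (Nat.card C) s)
    have hH'card : Nat.card (K.map C.subtype) = s ^ (Nat.card C).factorization s := by
      rw [Subgroup.card_map_of_injective C.subtype_injective]; exact hK
    have hH'p : IsPGroup s (K.map C.subtype) := IsPGroup.of_card hH'card
    have hH'le : K.map C.subtype ≤ Subgroup.center G := by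
      intro b hb
      obtain ⟨k, hk⟩ := (IsPGroup.iff_orderOf.mp hH'p) ⟨b, hb⟩
      obtain ⟨c, hc, rfl⟩ := Subgroup.mem_map.mp hb
      have hcx : (c : G) ∈ Subgroup.centralizer ({x} : Set G) := hC ▸ c.2
      exact hcent _ (Subgroup.mem_centralizer_singleton_iff.mp hcx)
        ⟨k, by rw [← hk, Subgroup.orderOf_mk]⟩
    have hH'n : (K.map C.subtype).Normal := ⟨fun b hb g => by
      have h1 := Subgroup.mem_center_iff.mp (hH'le hb) g
      rw [h1, mul_inv_cancel_right]; exact hb⟩
    have hzp : IsPGroup s (Subgroup.zpowers u) := by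
      obtain ⟨k, hk⟩ := hu_ord
      exact IsPGroup.of_card (n := k) (by rw [Nat.card_zpowers, hk])
    have hMp : IsPGroup s (K.map C.subtype ⊔ Subgroup.zpowers u : Subgroup G) :=
      IsPGroup.to_sup_of_normal_left hH'p hzp
    have hlt : K.map C.subtype < K.map C.subtype ⊔ Subgroup.zpowers u := by
      refine lt_of_le_of_ne le_sup_left (fun hEq => huc (hH'le ?_))
      rw [hEq]
      exact (le_sup_right : Subgroup.zpowers u ≤ _) (Subgroup.mem_zpowers u)
    have hMle : K.map C.subtype ⊔ Subgroup.zpowers u ≤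
        Subgroup.centralizer ({u} : Set G) := by
      refine sup_le (fun b hb => ?_) ?_
      · rw [Subgroup.mem_centralizer_singleton_iff]
        exact (Subgroup.mem_center_iff.mp (hH'le hb) u).symm
      · rw [Subgroup.zpowers_le, Subgroup.mem_centralizer_singleton_iff]
    obtain ⟨a, ha⟩ := IsPGroup.iff_card.mp hMp
    have h1 := syl_card_lt hlt
    rw [hH'card, ha] at h1
    have hva : (Nat.card C).factorization s < a := (Nat.pow_lt_pow_iff_right hs.one_lt).mp h1
    have hdvd : s ^ a ∣ Nat.card (Subgroup.centralizer ({u} : Set G)) :=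
      ha ▸ Subgroup.card_dvd_of_le hMle
    have hle := (Nat.Prime.pow_dvd_iff_le_factorization hs (Nat.card_pos.ne')).mp hdvd
    have e1 := Cfsg.Agent.Lib.Helper71.CS3.factorization_centralizer hyp hsm hxc
    have e2 := Cfsg.Agent.Lib.Helper71.CS3.factorization_centralizer hyp hsm huc
    rw [← hC] at e1
    omega

end Cfsg.Agent.Lib.Helper88.CS3
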