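import Mathlib
import Cfsg.Agent.Lib.Helper41.CS3.GoodDefs
import Cfsg.Agent.Lib.Helper24.CS3.Basics
import Cfsg.Agent.Lib.Helper71.CS3.Basics

/-!
# CS3 (S4284), part GOOD, package [G3]: `C(a) = Sa × N` with `N` abelian is abelian.
-/

set_option autoImplicit false

namespace Cfsg.Agent.Lib.Helper88.CS3

open Subgroup Cfsg.Agent.Lib.Helper81.CS3 Cfsg.Agent.Lib.Helper41.CS3

universe u

/-- if `A` and `B` commute elementwise then `|A ⊔ B|` divides `|A| |B|`. -/
theorem g3_card_sup_dvd {G : Type u} [Group G] [Finite G] (A B : Subgroup G)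
    (hc : ∀ x ∈ A, ∀ y ∈ B, x * y = y * x) :
    Nat.card (A ⊔ B : Subgroup G) ∣ Nat.card A * Nat.card B := by
  have hcm : ∀ (x : A) (y : B), Commute (A.subtype x) (B.subtype y) :=
    fun x y => hc x x.2 y y.2
  have hr : (MonoidHom.noncommCoprod A.subtype B.subtype hcm).range = A ⊔ B := by
    rw [MonoidHom.noncommCoprod_range, Subgroup.range_subtype, Subgroup.range_subtype]
  rw [← hr, ← Nat.card_prod]
  exact Subgroup.card_range_dvd _

/-- `|K : H| |H| = |K|` for `H ≤ K`. -/
theorem g3_card_mul_relIndex {G : Type u} [Group G] (H K : Subgroup G) (h : H ≤ K) :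
    Nat.card H * H.relIndex K = Nat.card K := by
  have := Subgroup.relIndex_mul_relIndex (H := (⊥ : Subgroup G)) (K := H) (L := K) bot_le h
  rwa [Subgroup.relIndex_bot_left, Subgroup.relIndex_bot_left] at this

/-- if `A` and `B` commute elementwise, `A` is a `p`-group, then `|A ⊔ B : B|` is a power
of `p`. -/
theorem g3_relIndex_pow {G : Type u} [Group G] [Finite G] (p : ℕ) (hp : p.Prime)
    (A B : Subgroup G) (hc : ∀ x ∈ A, ∀ y ∈ B, x * y = y * x) (hA : IsPGroup p A) :
    ∃ j : ℕ, B.relIndex (A ⊔ B) = p ^ j := by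
  have : Fact p.Prime := ⟨hp⟩
  obtain ⟨k, hk⟩ := IsPGroup.iff_card.mp hA
  have h1 := g3_card_sup_dvd A B hc
  have h2 := g3_card_mul_relIndex B (A ⊔ B) le_sup_right
  rw [← h2, mul_comm (Nat.card A)] at h1
  have h3 : B.relIndex (A ⊔ B) ∣ Nat.card A := Nat.dvd_of_mul_dvd_mul_left Nat.card_pos h1
  rw [hk] at h3
  obtain ⟨j, -, hj⟩ := (Nat.dvd_prime_pow hp).mp h3
  exact ⟨j, hj⟩

/-- [G3] -/
theorem pkgG3 : PkgG3.{u} := by
  intro G _ _ m n hyp s a Sa N hgood hdec hN
  have hm1 := hyp.2.1
  have hn1 := hyp.2.2.1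
  have hmn := hyp.2.2.2.1
  have hsp := hgood.sp
  have : Fact s.Prime := ⟨hsp⟩
  have hsn : s.Coprime n := Nat.Coprime.coprime_dvd_left hgood.sm hmn
  have hixa : (centralizer ({a} : Set G)).index = m := hgood.ixa
  have hsup : Sa ⊔ N = centralizer ({a} : Set G) := hdec.sup
  have hkey : ∀ j : ℕ, ¬ n ∣ s ^ j := by
    intro j hd
    have h1 : n.Coprime (s ^ j) := (hsn.symm).pow_right j
    have := Nat.Coprime.eq_one_of_dvd h1 hd
    omega
  have hSaH : Sa ≤ centralizer ({a} : Set G) := by rw [← hsup]; exact le_sup_left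
  have hNH : N ≤ centralizer ({a} : Set G) := by rw [← hsup]; exact le_sup_right
  obtain ⟨k, hk⟩ := IsPGroup.iff_card.mp hdec.pS
  obtain ⟨j, hj⟩ := g3_relIndex_pow s hsp Sa N hdec.comm hdec.pS
  rw [hsup] at hj
  -- `N` is not central in `G`
  have hNnc : ∃ v ∈ N, v ∉ Subgroup.center G := by
    by_contra hcon
    push Not at hcon
    obtain ⟨x, hx⟩ := Cfsg.Agent.Lib.Helper71.CS3.exists_idx_mn hyp
    have hle : N ≤ centralizer ({x} : Set G) := by
      intro v hv
      rw [Subgroup.mem_centralizer_singleton_iff]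
      exact (Subgroup.mem_center_iff.mp (hcon v hv) x).symm
    have h1 : (centralizer ({x} : Set G)).index ∣ N.index := Subgroup.index_dvd_of_le hle
    have h2 : N.relIndex (centralizer ({a} : Set G)) * (centralizer ({a} : Set G)).index
        = N.index := Subgroup.relIndex_mul_index hNH
    rw [hx, ← h2, hj, hixa, mul_comm m n] at h1
    exact hkey j (Nat.dvd_of_mul_dvd_mul_right (by omega) h1)
  obtain ⟨v, hvN, hvc⟩ := hNnc
  -- `v` is central in `C(a)`
  have hHv : centralizer ({a} : Set G) ≤ centralizer ({v} : Set G) := by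
    rw [← hsup]
    apply sup_le
    · intro x hx
      rw [Subgroup.mem_centralizer_singleton_iff]
      exact hdec.comm x hx v hvN
    · intro x hx
      rw [Subgroup.mem_centralizer_singleton_iff]
      exact hN x hx v hvN
  have hixv : (centralizer ({v} : Set G)).index = m := by
    have hd : (centralizer ({v} : Set G)).index ∣ (centralizer ({a} : Set G)).index :=
      Subgroup.index_dvd_of_le hHv
    rw [hixa] at hd
    rcases Cfsg.Agent.Lib.Helper71.CS3.idx_cases hyp v with h | h | h
    · exact absurd ((Cfsg.Agent.Lib.Helper71.CS3.idx_eq_one_iff v).mp h) hvc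
    · exact h
    · rw [h] at hd
      have := Nat.le_of_dvd (by omega) hd
      nlinarith
  have hveq : centralizer ({v} : Set G) = centralizer ({a} : Set G) := by
    apply le_antisymm _ hHv
    have h2 := Subgroup.relIndex_mul_index hHv
    rw [hixv, hixa] at h2
    have h3 : (centralizer ({a} : Set G)).relIndex (centralizer ({v} : Set G)) = 1 := by
      have : (centralizer ({a} : Set G)).relIndex (centralizer ({v} : Set G)) * m = 1 * m := by
        rw [h2, one_mul]
      exact Nat.eq_of_mul_eq_mul_right (by omega) this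
    exact Subgroup.relIndex_eq_one.mp h3
  -- every element of `Sa` is central in `C(a)`
  have hSa : ∀ u ∈ Sa, centralizer ({a} : Set G) ≤ centralizer ({u} : Set G) := by
    intro u hu
    have hcomm : Commute v u := (hdec.comm u hu v hvN).symm
    have hco : (orderOf v).Coprime (orderOf u) := by
      have h1 : orderOf v ∣ Nat.card N := N.orderOf_dvd_natCard hvN
      have h2 : orderOf u ∣ Nat.card Sa := Sa.orderOf_dvd_natCard hu
      rw [hk] at h2
      exact Nat.Coprime.coprime_dvd_left h1 (Nat.Coprime.coprime_dvd_right h2 (hdec.cop.pow_right k))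
    have h4 := Cfsg.Agent.Lib.Helper24.CS3.relIndex_of_coprime hyp v u hixv hcomm hco
    rw [hveq] at h4
    have hle : N ≤ centralizer ({u} : Set G) := by
      intro w hw
      rw [Subgroup.mem_centralizer_singleton_iff]
      exact (hdec.comm u hu w hw).symm
    have hd : (centralizer ({u} : Set G)).relIndex (centralizer ({a} : Set G)) ∣
        N.relIndex (centralizer ({a} : Set G)) := Subgroup.relIndex_dvd_of_le_left _ hle
    rcases h4 with h | h
    · exact Subgroup.relIndex_eq_one.mp h
    · rw [h, hj] at hd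
      exact absurd hd (hkey j)
  have hSaAb : ∀ x ∈ Sa, ∀ y ∈ Sa, x * y = y * x := by
    intro x hx y hy
    have := hSa y hy (hSaH hx)
    rw [Subgroup.mem_centralizer_singleton_iff] at this
    exact this
  have hcent : Sa ⊔ N ≤ centralizer ((Sa ⊔ N : Subgroup G) : Set G) := by
    apply sup_le
    · rw [Subgroup.le_centralizer_iff]
      apply sup_le
      · intro z hz
        rw [Subgroup.mem_centralizer_iff]
        intro w hw
        exact hSaAb w hw z hz
      · intro z hz
        rw [Subgroup.mem_centralizer_iff]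
        intro w hw
        exact hdec.comm w hw z hz
    · rw [Subgroup.le_centralizer_iff]
      apply sup_le
      · intro z hz
        rw [Subgroup.mem_centralizer_iff]
        intro w hw
        exact (hdec.comm z hz w hw).symm
      · intro z hz
        rw [Subgroup.mem_centralizer_iff]
        intro w hw
        exact hN w hw z hz
  intro x hx y hy
  have hx' : x ∈ Sa ⊔ N := by rw [hsup]; exact hx
  have hy' : y ∈ Sa ⊔ N := by rw [hsup]; exact hy
  have := hcent hy'
  rw [Subgroup.mem_centralizer_iff] at this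
  exact this x hx'

end Cfsg.Agent.Lib.Helper88.CS3
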